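import Cfsg.Agent.H28.U4Gen
import Mathlib.FieldTheory.Finite.GaloisField

/-! Slot U4-EM of the tower for S5210. -/

set_option autoImplicit false
set_option linter.unusedSectionVars false

open Subgroup H90.RF H92 Cfsg H28.U4
open H90.U5 (BF normal_of_cm)

namespace H8.U4EM

universe v

theorem tr4 : ∀ a c : F4, c ≠ 0 → (a * T4.σ c + T4.σ a * c = 0 ↔ a = 0 ∨ a = c) := by decide

theorem ex4 : ∀ c : F4, c ≠ 0 → c + c = 0 ∧ ∃ γ, c * T4.σ γ + T4.σ c * γ ≠ 0 := by decide

theorem mem_cE {c : F4} (hc : c ≠ 0) {s : Co T4} : s ∈ cE T4 c ↔ s.a = 0 ∨ s.a = c := by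
  rw [cE, mem_centralizer_singleton_iff, ← cm_eq_one, ← tr4 _ _ hc]
  constructor
  · intro h
    have := congrArg Co.d h
    rw [cm_dA s rfl] at this
    simpa [xc] using this
  · intro h
    refine eq_of_Z (cm_Z s ⟨rfl, rfl⟩) (one_mem _) ?_
    rw [cm_dA s rfl]
    simpa [xc] using h

/-- the series of `E` -/
def zE (c : F4) : ℕ → Subgroup (Co T4)
  | 0 => ⊥ | 1 => sZ T4 | 2 => sD T4 | 3 => sA T4 | _ => cE T4 c

theorem prA {c : F4} (hc : c ≠ 0) {α : Co T4 → Co T4} (a : Au (cE T4 c) α) : Pr α (sA T4) := by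
  intro u hu
  have AE : sA T4 ≤ cE T4 c := fun s hs => (mem_cE hc).2 (Or.inl hs)
  by_contra k
  have ha : (α u).a = c := ((mem_cE hc).1 (a.mem u (AE hu))).resolve_left k
  obtain ⟨c2, γ, hγ⟩ := ex4 c hc
  obtain ⟨w, hw, e⟩ := a.sur (xb T4 1 (map_one _)) (AE rfl)
  obtain ⟨w', hw', e'⟩ := a.sur (xc T4 γ) (AE rfl)
  have key : ∀ x ∈ cE T4 c, x ∈ sA T4 → cm (α u) (α x) = 1 := fun x hx hA => by
    rw [← a.cm (AE hu) hx, cm_eq_one.2 (comm_A hu hA), a.one]
  rcases (mem_cE hc).1 hw with h | h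
  · have := congrArg Co.c (key w hw h)
    rw [e, cm_c, ha] at this
    exact hc (by simpa [xb] using this)
  rcases (mem_cE hc).1 hw' with h' | h'
  · have := congrArg Co.d (key w' hw' h')
    rw [e', cm_dA _ rfl, ha] at this
    exact hγ (by simpa [xc] using this)
  · have := congrArg Co.c (key (w * w') (mul_mem hw hw') (by
      rw [mem_sA, Co.mul_a, h, h', c2]))
    rw [a.mul _ hw _ hw', e, e', cm_c, ha] at this
    exact hc (by simpa [xb, xc] using this)

theorem jobEM : JobEM := by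
  intro F hF c hc hE
  by_contra hM
  have AE : sA T4 ≤ cE T4 c := fun s hs => (mem_cE hc).2 (Or.inl hs)
  have nE : (cE T4 c).Normal := normal_of_cm fun s m _ => AE (D_le_A (cm_D s m))
  have hP := pgroup_Co (T := T4) 2
  refine H90.U5.not_ess (hP.to_subgroup ⊤) hF (fun α hα => ?_) hE
  have a := (H90.U5.lg_aY _).au α hα
  have pA := prA hc a
  obtain ⟨α', hα', e⟩ := exists_aY ((mor_aY hα).mono AE) pA
  have lg := H90.U5.lg_aY (E := F) (sA T4)
  have xE : xa T4 c ∈ cE T4 c := (mem_cE hc).2 (Or.inr rfl)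
  have xa' : (α (xa T4 c)).a = c :=
    ((mem_cE hc).1 (a.mem _ xE)).resolve_left fun k => hc (a.mem_of AE pA xE k)
  have pz : PZ T4 α' := by
    by_contra k
    refine hM ⟨α', hα', Equiv.ext fun u => ?_, k⟩
    rw [Equiv.Perm.mul_apply, Equiv.Perm.mul_apply]
    by_cases hu : u ∈ sA T4
    · rw [e _ (ux_co c hu).1, e u hu, ux_apply c hu, ux_apply c (pA u hu), a.conj xE (AE hu),
        cj_xa _ (pA u hu), xa']
    · rw [ux_out c hu, lg.out _ hα' u hu, ux_out c hu]
  refine H90.U5.ext_of hP hF hα (H90.U5.nor_of_cm hP hF (zE c) 4 rfl le_rfl (fun i hi => ?_)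
    (fun i => ?_) (fun i => ?_) (fun i hi u hu s => ?_) hα fun i hi => ?_)
  · interval_cases i
    exacts [bot_le, Z_le_A.trans AE, D_le_A.trans AE, AE, le_rfl]
  · rcases i with _ | _ | _ | _ | i
    exacts [bot_le, Z_le, D_le_A, AE, le_rfl]
  · unfold zE; split <;> infer_instance
  · interval_cases i
    exacts [cm_one s hu, cm_Z s hu, cm_D s u, D_le_A (cm_D s u)]
  · interval_cases i
    · intro u hu
      rw [show u = 1 from hu, a.one]; exact one_mem _
    · intro u hu
      rw [← e u (Z_le_A hu)]; exact pz.1 u hu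
    · intro u hu
      rw [← e u (D_le_A hu)]; exact pz.2 u hu
    · exact pA
    · exact a.mem

section Tr

variable {K L : Type*} [Field K] [Field L]

/-- the map on coordinates -/
def mp {T : BF K} {T' : BF L} (φ : K →+* L) (h : ∀ x, φ (T.σ x) = T'.σ (φ x)) (u : Co T) : Co T' :=
  ⟨φ u.a, φ u.b, φ u.c, φ u.d, by rw [← h, u.hb], by simpa [h] using congrArg φ u.hd⟩

theorem co_equiv {T : BF K} {T' : BF L} (φ : K ≃+* L) (h : ∀ x, φ (T.σ x) = T'.σ (φ x)) :
    Nonempty (Co T ≃* Co T') :=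
  ⟨{ toFun := mp φ.toRingHom h
     invFun := mp φ.symm.toRingHom fun x => φ.injective (by simp [h])
     left_inv := fun u => by ext <;> simp [mp]
     right_inv := fun u => by ext <;> simp [mp]
     map_mul' := fun u w => by ext <;> simp [mp, h] }⟩

theorem card_K (p : ℕ) [Fact p.Prime] [Finite K] [CharP K p] (T : BF K) (h : ¬ Big T) :
    Nat.card K = p * p := by
  have e1 : Nat.card (ZMod p) = Nat.card T.κ := by
    refine Nat.card_eq_of_bijective (fun n => ⟨ZMod.castHom dvd_rfl K n, ?_⟩) ⟨fun a b e => ?_, fun l => ?_⟩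
    · obtain ⟨n, rfl⟩ := ZMod.natCast_zmod_surjective n
      simp
    · exact (ZMod.castHom dvd_rfl K).injective (congrArg Subtype.val e)
    · by_contra k
      refine h ⟨l, l.2, fun e => k ⟨0, Subtype.ext (by simp [e])⟩,
        fun e => k ⟨1, Subtype.ext (by simp [e])⟩, fun e => k ⟨-1, Subtype.ext (by simp [e])⟩⟩
  have e2 : Nat.card (T.κ × T.κ) = Nat.card K :=
    Nat.card_eq_of_bijective (fun x => (x.1 : K) + x.2 * T.ω)
      ⟨fun x y e => Prod.ext (T.pair_inj e).1 (T.pair_inj e).2, fun t => by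
        obtain ⟨x, y, e⟩ := T.exists_pair t
        exact ⟨(x, y), e.symm⟩⟩
  rw [← e2, Nat.card_prod, ← e1, Nat.card_zmod]

theorem tr_of [Finite K] [Fintype L] (T : BF K) (T' : BF L) (hc : Nat.card K = Fintype.card L)
    (gen : ∀ x : L, ∃ n m : Fin 3, x = (n : ℕ) + (m : ℕ) * T'.ω) (r s : ℕ)
    (e : T'.ω * T'.ω = r + s * T'.ω) (rt : ∀ x : L, x * x = r + s * x → x = T'.ω ∨ x = T'.σ T'.ω) :
    Nonempty (Co T ≃* Co T') := by
  have := Fintype.ofFinite K
  let φ : K ≃+* L := FiniteField.ringEquivOfCardEq (Nat.card_eq_fintype_card.symm.trans hc)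
  let τ : L →+* L := φ.toRingHom.comp (T.σ.comp φ.symm.toRingHom)
  have ext : ∀ f g : L →+* L, f T'.ω = g T'.ω → ∀ x, f x = g x := fun f g k x => by
    obtain ⟨n, m, rfl⟩ := gen x
    simp [k]
  refine co_equiv φ fun x => ?_
  rcases rt (τ T'.ω) (by rw [← map_mul, e]; simp) with k | k
  · exact absurd (φ.injective (by simpa [τ] using ext τ (RingHom.id L) k (φ T.ω))) T.ne
  · simpa [τ] using ext τ T'.σ k (φ x)

end Tr

theorem jobTr : JobTr.{v} := by
  intro p hp K _ _ _ T h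
  have hc := card_K p T h
  have h23 : p = 2 ∨ p = 3 := by
    by_contra k
    refine h ⟨2, map_ofNat _ 2, fun e => k (Or.inl ?_), fun e => one_ne_zero (α := K) ?_,
      fun e => k (Or.inr ?_)⟩
    · exact (Nat.prime_dvd_prime_iff_eq hp.out Nat.prime_two).1
        ((CharP.cast_eq_zero_iff K p 2).1 (by simpa using e))
    · linear_combination e
    · exact (Nat.prime_dvd_prime_iff_eq hp.out Nat.prime_three).1
        ((CharP.cast_eq_zero_iff K p 3).1 (by push_cast; linear_combination e))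
  rcases h23 with rfl | rfl
  · exact Or.inl ⟨rfl, tr_of T T4 (hc.trans (by decide)) (by decide) 1 1 (by decide) (by decide)⟩
  · exact Or.inr ⟨rfl, tr_of T T9 (hc.trans (by decide)) (by decide) 2 0 (by decide) (by decide)⟩

end H8.U4EM
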