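import Cfsg.Agent.H92.Syl

/-! Slot U4-PE of the tower for S5210: the abstract part. -/

set_option autoImplicit false

namespace H8.U4PE

open Subgroup H92

variable {A : Type*} [Group A] [Finite A] {p : ℕ} [Fact p.Prime]

/-- The data on the abelian group. -/
structure Dt (p : ℕ) (Z Y : Subgroup A) (H U : Subgroup (MulAut A)) (β γ : MulAut A) : Prop where
  comm : ∀ a b : A, a * b = b * a
  syl : SylIn p U H
  zp : ∀ z ∈ Z, z ^ p = 1
  le : Z ≤ Y
  fixZ : ∀ u ∈ U, ∀ z ∈ Z, u z = z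
  dich : ∀ u ∈ U, (∀ e, u e = e → e ∈ Z) ∨ u = 1 ∨ ∀ z ∈ Z, ∃ e, u e = e * z
  βU : β ∈ U
  β1 : β ≠ 1
  βY : ∀ y ∈ Y, β y = y
  βE : ∀ e, e⁻¹ * β e ∈ Z
  γ1 : ∀ e, e⁻¹ * γ e ∈ Y
  γ2 : ∀ e, e⁻¹ * γ e ∈ Z → e ∈ Y
  orb : ∀ v, v ∉ Y → ∀ w ∈ Y, ∃ u ∈ U, u v = v * w

namespace Dt

variable {Z Y : Subgroup A} {H U : Subgroup (MulAut A)} {β γ : MulAut A} (h : Dt p Z Y H U β γ)
include h

omit [Finite A] [Fact p.Prime] in
theorem nle : ¬ Y ≤ Z := fun k => h.β1 (MulEquiv.ext fun e => h.βY e (h.γ2 e (k (h.γ1 e))))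

omit [Fact p.Prime] in
theorem cnt : Y.index ≤ Z.relIndex Y := by
  have : Z.Normal := ⟨fun n hn g => by rwa [h.comm g n, mul_inv_cancel_right]⟩
  let χ : A →* A := MonoidHom.mk' (fun e => e⁻¹ * γ e) fun a b => by
    rw [map_mul, mul_inv_rev, h.comm b⁻¹, mul_assoc, mul_assoc, ← mul_assoc b⁻¹, h.comm b⁻¹,
      mul_assoc]
  let ψ := (QuotientGroup.mk' Z).comp χ
  have k1 : ψ.ker ≤ Y := fun e he => h.γ2 e ((QuotientGroup.eq_one_iff _).1 he)
  have k2 : ψ.range ≤ Y.map (QuotientGroup.mk' Z) := by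
    rintro _ ⟨e, rfl⟩
    exact ⟨_, h.γ1 e, rfl⟩
  calc Y.index ≤ ψ.ker.index := index_antitone k1
    _ = Nat.card ψ.range := index_ker ψ
    _ ≤ Nat.card (Y.map (QuotientGroup.mk' Z)) := card_le_of_le k2
    _ = Z.relIndex Y := by rw [← relIndex_ker, QuotientGroup.ker_mk']

theorem one {g : MulAut A} (hg : g ∈ H) {z : A} (hz : z ∈ Z) (hy : g z ∈ Y) : g z ∈ Z := by
  set C : Subgroup (MulAut A) := H ⊓ MulAction.stabilizer (MulAut A) (g z) with hC
  have s1 : SylIn p (U.map (MulAut.conj g).toMonoidHom) C := by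
    refine (h.syl.conj hg).mono (le_inf (h.syl.conj hg).le ?_) inf_le_left
    rintro _ ⟨u, hu, rfl⟩
    show (g * u * g⁻¹) (g z) = g z
    simp [h.fixZ u hu z hz]
  have s2 : zpowers β ≤ C := zpowers_le.2 ⟨h.syl.le h.βU, h.βY _ hy⟩
  obtain ⟨c, hc, e⟩ := s1.exists_conj (h.syl.isPGroup.to_le (zpowers_le.2 h.βU)) s2
  obtain ⟨u, hu, e⟩ := e β (mem_zpowers β)
  have e1 : ∀ x, c (β (c⁻¹ (g x))) = g (u x) := fun x => by
    have := congrArg (fun f : MulAut A => f (g x)) e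
    simpa using this.symm
  have c1 : c⁻¹ (g z) = g z := by
    have : c (g z) = g z := hc.2
    nth_rewrite 1 [← this]
    simp
  set g' : MulAut A := c⁻¹ * g with hg'
  have e2 : ∀ x, β (g' x) = g' (u x) := fun x => by
    show β (c⁻¹ (g x)) = c⁻¹ (g (u x))
    rw [← e1]; simp
  rcases h.dich u hu with k | k | k
  · exfalso
    have l : Y.map (g'⁻¹ : MulAut A).toMonoidHom ≤ Z := by
      rintro _ ⟨y, hy, rfl⟩
      refine k _ (g'.injective ?_)
      rw [← e2]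
      simp [h.βY y hy]
    have c2 := card_le_of_le l
    rw [card_map_of_injective (g'⁻¹ : MulAut A).injective] at c2
    exact h.nle (eq_of_le_of_card_ge h.le c2).ge
  · exfalso
    refine h.β1 (MulEquiv.ext fun x => ?_)
    obtain ⟨x, rfl⟩ := g'.surjective x
    rw [e2, k]; rfl
  · obtain ⟨x, hx⟩ := k z hz
    have := h.βE (g' x)
    rw [e2, hx, map_mul, inv_mul_cancel_left] at this
    rw [← c1]; exact this

theorem two {g : MulAut A} (hg : g ∈ H) {z : A} (hz : z ∈ Z) : g z ∈ Z := by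
  refine h.one hg hz (by_contra fun hv => ?_)
  set W := Y.comap g.toMonoidHom ⊓ Y with hW
  have l : W ≤ Z := fun w hw => by
    obtain ⟨u, hu, e⟩ := h.orb _ hv _ hw.1
    have e' : (g⁻¹ * u * g) z = z * w := by
      show g⁻¹ (u (g z)) = _
      rw [e, map_mul]; simp
    have := h.one (H.mul_mem (H.mul_mem (H.inv_mem hg) (h.syl.le hu)) hg) hz
      (e' ▸ Y.mul_mem (h.le hz) hw.2)
    rw [e'] at this
    exact (Z.mul_mem_cancel_left hz).1 this
  have m1 := relIndex_mul_relIndex W Z Y l h.le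
  have m2 : W.relIndex Y ≤ Y.index := by
    rw [hW, inf_relIndex_right, ← index_comap_of_surjective Y (f := g.toMonoidHom) g.surjective,
      ← relIndex_top_right]
    exact relIndex_le_of_le_right le_top (by rw [relIndex_top_right]; exact index_ne_zero_of_finite)
  have m3 : W.relIndex Z ≠ 1 := fun e => hv (relIndex_eq_one.1 e hz).1
  have m4 : W.relIndex Z ≠ 0 := index_ne_zero_of_finite
  have m5 : Z.relIndex Y ≠ 0 := index_ne_zero_of_finite
  have m6 : 2 * Z.relIndex Y ≤ W.relIndex Y := m1 ▸ Nat.mul_le_mul_right _ (by omega)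
  have := h.cnt
  omega

theorem main {α : MulAut A} (hα : α ∈ H) : α * β * α⁻¹ ∈ U := by
  let N : Subgroup (MulAut A) :=
    { carrier := {u | u ∈ H ∧ (∀ z ∈ Z, u z = z) ∧ ∀ e, e⁻¹ * u e ∈ Z}
      one_mem' := ⟨one_mem _, fun _ _ => rfl, fun e => by simp⟩
      mul_mem' := fun {u v} hu hv => ⟨mul_mem hu.1 hv.1, fun z hz => by
        rw [MulAut.mul_apply, hv.2.1 z hz, hu.2.1 z hz], fun e => by
        have := Z.mul_mem (hv.2.2 e) (hu.2.2 (v e))
        simpa [mul_assoc] using this⟩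
      inv_mem' := fun {u} hu => ⟨inv_mem hu.1, fun z hz => by
        nth_rewrite 1 [← hu.2.1 z hz]; simp, fun e => by
        have := Z.inv_mem (hu.2.2 (u⁻¹ e))
        simpa using this⟩ }
  have n1 : ∀ b ∈ H, ∀ n ∈ N, b * n * b⁻¹ ∈ N := fun b hb n hn =>
    ⟨H.mul_mem (H.mul_mem hb hn.1) (H.inv_mem hb), fun z hz => by
      show b (n (b⁻¹ z)) = z
      rw [hn.2.1 _ (h.two (H.inv_mem hb) hz)]; simp, fun e => by
      have := h.two hb (hn.2.2 (b⁻¹ e))
      simpa using this⟩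
  have n2 : IsPGroup p N := isPGroup_iff_forall.2 fun u hu => ⟨1, MulEquiv.ext fun e => by
    have : ∀ n : ℕ, (u ^ n) e = e * (e⁻¹ * u e) ^ n := fun n => by
      induction n with
      | zero => simp
      | succ n ih =>
        rw [pow_succ', MulAut.mul_apply, ih, map_mul, hu.2.1 _ (Z.pow_mem (hu.2.2 e) n), pow_succ',
          ← mul_assoc, mul_inv_cancel_left]
    rw [pow_one, this, h.zp _ (hu.2.2 e), mul_one]; rfl⟩
  exact h.syl.pCoreOf_le (le_pCoreOf (N := N) (fun _ k => k.1) n1 n2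
    (n1 α hα β ⟨h.syl.le h.βU, h.fixZ β h.βU, h.βE⟩))

end Dt

end H8.U4PE
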