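import Cfsg.Agent.H28.U4Gen
import Cfsg.Agent.H8.U4PEa

/-! Slot U4-PE of the tower for S5210. -/

set_option autoImplicit false
set_option linter.unusedSectionVars false

open Subgroup H90.RF H92 Cfsg H28.U4
open H90.U5 (BF)

namespace H8.U4PE

universe v

variable {K : Type*} [Field K] [Finite K] {T : BF K} {m e s : Co T}

theorem memE : e ∈ centralizer {m} ↔ cm e m = 1 := by
  rw [mem_centralizer_singleton_iff, cm_eq_one]

theorem cm_one_iff {s e : Co T} : cm s e = 1 ↔ (cm s e).c = 0 ∧ (cm s e).d = 0 :=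
  ⟨fun h => by rw [h]; exact ⟨rfl, rfl⟩, fun h => Co.ext (cm_a _ _) (cm_b _ _) h.1 h.2⟩

theorem par (hb : m.b ≠ 0) (he : e ∈ centralizer {m}) : ∃ l, T.σ l = l ∧ e.a = l * m.a ∧
    e.b = l * m.b ∧ m.a * T.σ e.c + T.σ m.a * e.c =
      l * (m.a * T.σ m.c + T.σ m.a * m.c) + m.a * T.σ m.a * m.b * (l ^ 2 - l) := by
  obtain ⟨h1, h2⟩ := cm_one_iff.1 (memE.1 he)
  obtain ⟨l, hl⟩ : ∃ l, e.b = l * m.b := ⟨e.b / m.b, (div_mul_cancel₀ _ hb).symm⟩
  have sl : T.σ l = l := mul_right_cancel₀ hb (by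
    have := e.hb
    rwa [hl, map_mul, m.hb] at this)
  have ha : e.a = l * m.a := mul_right_cancel₀ hb (by
    rw [cm_c, hl] at h1; linear_combination h1)
  refine ⟨l, sl, ha, hl, ?_⟩
  simp only [cm_d, bf, Co.π, ha, hl, map_mul, sl] at h2
  linear_combination -h2

theorem tr_sur {a ρ : K} (ha : a ≠ 0) (h : T.σ ρ = ρ) : ∃ γ, a * T.σ γ + T.σ a * γ = ρ := by
  obtain ⟨g, hg⟩ := T.exists_tr h
  have : T.σ a ≠ 0 := (map_ne_zero _).2 ha
  refine ⟨g / T.σ a, ?_⟩
  rw [map_div₀, T.sq]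
  field_simp
  linear_combination hg

theorem ex (ha : m.a ≠ 0) {l : K} (sl : T.σ l = l) :
    ∃ e ∈ centralizer {m}, e.a = l * m.a ∧ e.b = l * m.b := by
  obtain ⟨γ, hγ⟩ := tr_sur (T := T) ha
    (ρ := l * (m.a * T.σ m.c + T.σ m.a * m.c) + m.a * T.σ m.a * m.b * (l ^ 2 - l))
    (by simp only [map_add, map_mul, map_sub, map_pow, T.sq, sl, m.hb]; ring)
  refine ⟨⟨l * m.a, l * m.b, γ, l * m.a * T.σ γ, by rw [map_mul, sl, m.hb],
    by simp only [map_mul, sl, T.sq]; ring⟩, memE.2 (cm_one_iff.2 ⟨?_, ?_⟩), rfl, rfl⟩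
  · rw [cm_c]; ring
  · simp only [cm_d, bf, Co.π, map_mul, sl]
    linear_combination -hγ

theorem cm_c' {l : K} (h1 : e.a = l * m.a) (h2 : e.b = l * m.b) (s : Co T) :
    (cm s e).c = l * (cm s m).c := by
  rw [cm_c, cm_c, h1, h2]; ring

theorem cm_d' (hb : m.b ≠ 0) (hs : (cm s m).c = 0) (he : e ∈ centralizer {m}) :
    (cm s e).d * m.b = e.b * (cm s m).d := by
  obtain ⟨l, sl, h1, h2, h3⟩ := par hb he
  obtain ⟨j, hj⟩ : ∃ j, s.b = j * m.b := ⟨s.b / m.b, (div_mul_cancel₀ _ hb).symm⟩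
  have sj : T.σ j = j := mul_right_cancel₀ hb (by
    have := s.hb
    rwa [hj, map_mul, m.hb] at this)
  have ha : s.a = j * m.a := mul_right_cancel₀ hb (by
    rw [cm_c, hj] at hs; linear_combination hs)
  simp only [cm_d, bf, Co.π, ha, hj, h1, h2, map_mul, sl, sj]
  linear_combination j * m.b * h3

theorem commE (hb : m.b ≠ 0) (hs : s ∈ centralizer {m}) (he : e ∈ centralizer {m}) :
    s * e = e * s := by
  obtain ⟨k1, k2⟩ := cm_one_iff.1 (memE.1 hs)
  obtain ⟨l, -, h1, h2, -⟩ := par hb he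
  have := cm_d' hb k1 he
  rw [k2, mul_zero] at this
  exact cm_eq_one.1 (cm_one_iff.2 ⟨by rw [cm_c' h1 h2, k1, mul_zero],
    (mul_eq_zero.1 this).resolve_right hb⟩)

theorem memY (he : e ∈ sD T) : e ∈ centralizer {m} ↔ m.a * T.σ e.c + T.σ m.a * e.c = 0 := by
  rw [memE, cm_one_iff, (cm_Z' he m).2.2, cm_dA' he.1, he.2]
  exact ⟨fun h => by linear_combination -h.2, fun h => ⟨rfl, by linear_combination -h⟩⟩

theorem cm_memE (hb : m.b ≠ 0) (hs : cm s m ∈ centralizer {m}) (he : e ∈ centralizer {m}) :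
    cm s e ∈ centralizer {m} := by
  obtain ⟨l, sl, h1, h2, -⟩ := par hb he
  rw [memY (cm_D _ _)] at hs ⊢
  rw [cm_c' h1 h2, map_mul, sl]
  linear_combination l * hs

theorem exA (hb : m.b ≠ 0) (hs : cm s m ∈ centralizer {m}) :
    ∃ u ∈ autInducedBy (⊤ : Subgroup (Co T)) (centralizer {m}),
      ∀ e : centralizer ({m} : Set (Co T)), ((u e : centralizer ({m} : Set (Co T))) : Co T) =
        e * cm s e :=
  have hn : s ∈ normalizer ((centralizer {m} : Subgroup (Co T)) : Set (Co T)) :=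
    mem_nor fun _ he => cm_memE hb hs he
  ⟨cAut _ s hn, cAut_mem hn trivial, fun e => conj_eq_cm s e⟩

theorem ofA {u : MulAut (centralizer ({m} : Set (Co T)))}
    (hu : u ∈ autInducedBy (⊤ : Subgroup (Co T)) (centralizer {m})) :
    ∃ s, cm s m ∈ centralizer {m} ∧
      ∀ e : centralizer ({m} : Set (Co T)), ((u e : centralizer ({m} : Set (Co T))) : Co T) =
        e * cm s e := by
  obtain ⟨s, -, h⟩ := mem_autInducedBy.1 hu
  have k : ∀ e : centralizer ({m} : Set (Co T)), ((u e : centralizer ({m} : Set (Co T))) : Co T) =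
      e * cm s e := fun e => by rw [← conj_eq_cm, ← h e e.2, af_of_mem _ e.2]
  have hm : m ∈ centralizer {m} := mem_centralizer_singleton_iff.2 rfl
  refine ⟨s, ?_, k⟩
  have := (u ⟨m, hm⟩).2
  rw [k] at this
  exact (Subgroup.mul_mem_cancel_left _ hm).1 this

theorem dt (p : ℕ) [Fact p.Prime] [CharP K p] (h2 : (2 : K) ≠ 0) (ha : m.a ≠ 0) (hb : m.b ≠ 0)
    {H : Subgroup (MulAut (centralizer ({m} : Set (Co T))))}
    (hS : SylIn p (autInducedBy (⊤ : Subgroup (Co T)) (centralizer {m})) H) :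
    ∃ β γ, Dt p ((sZ T).subgroupOf (centralizer {m})) ((sD T).subgroupOf (centralizer {m})) H
      (autInducedBy (⊤ : Subgroup (Co T)) (centralizer {m})) β γ := by
  have hm : m ∈ centralizer {m} := mem_centralizer_singleton_iff.2 rfl
  have sa : T.σ m.a ≠ 0 := (map_ne_zero _).2 ha
  have ZE : ∀ z ∈ sZ T, z ∈ centralizer {m} := fun z hz =>
    mem_centralizer_singleton_iff.2 (comm_Z m hz).symm
  obtain ⟨t, ht⟩ := tr_sur (T := T) ha (map_one T.σ)
  obtain ⟨β, hβ, eβ⟩ := exA (s := xc T t) hb (ZE _ (cm_Z' ⟨rfl, rfl⟩ m))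
  have cγ : (cm (xa T (T.ε * m.a)) m).c = T.ε * m.a * m.b := by simp [cm_c, xa]
  obtain ⟨γ, -, eγ⟩ := exA (s := xa T (T.ε * m.a)) hb ((memY (cm_D _ _)).2 (by
    rw [cγ, map_mul, map_mul, T.σε, m.hb]; ring))
  have dY : ∀ e ∈ centralizer {m}, ∀ s, (cm s m).c ≠ 0 → (cm s e).c = 0 → e ∈ sD T :=
    fun e he s h1 h0 => by
      obtain ⟨l, -, k1, k2, -⟩ := par hb he
      rw [cm_c' k1 k2] at h0
      have := (mul_eq_zero.1 h0).resolve_right h1
      exact ⟨by rw [k1, this, zero_mul], by rw [k2, this, zero_mul]⟩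
  refine ⟨β, γ, fun a b => Subtype.ext (commE hb a.2 b.2), hS,
    fun z hz => Subtype.ext (pow_p_A p (Z_le_A hz)), fun z hz => Z_le hz, fun u hu z hz => ?_,
    fun u hu => ?_, hβ, fun k => ?_, fun y hy => ?_, fun e => ?_, fun e => ?_, fun e he => ?_,
    fun v hv w hw => ?_⟩
  · obtain ⟨s, -, k⟩ := ofA hu
    exact Subtype.ext (by rw [k, cm_one s (m := z) hz, mul_one])
  · obtain ⟨s, hs, k⟩ := ofA hu
    by_cases c0 : (cm s m).c = 0
    · right
      by_cases d0 : (cm s m).d = 0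
      · left
        refine MulEquiv.ext fun e => Subtype.ext ?_
        rw [k, cm_eq_one.2 (commE hb (memE.2 (cm_one_iff.2 ⟨c0, d0⟩)) e.2), mul_one]; rfl
      · right
        intro z hz
        have zd : T.σ (z : Co T).d = (z : Co T).d := A_d hz.1
        have md : T.σ (cm s m).d = (cm s m).d := A_d (cm_a _ _)
        obtain ⟨e, he, k1, k2⟩ := ex (l := (z : Co T).d / (cm s m).d) ha (by rw [map_div₀, zd, md])
        refine ⟨⟨e, he⟩, Subtype.ext ?_⟩
        rw [k]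
        show e * cm s e = e * z
        congr 1
        refine eq_of_Z ⟨cm_a _ _, cm_b _ _, by rw [cm_c' k1 k2, c0, mul_zero]⟩ hz
          (mul_right_cancel₀ hb ?_)
        rw [cm_d' hb c0 he, k2]
        field_simp
    · left
      intro e he
      have h1 : cm s e = 1 := by
        have := k e
        rw [he] at this
        exact left_eq_mul.1 this
      obtain ⟨h3, h4⟩ := cm_one_iff.1 h1
      have hD := dY e e.2 s c0 h3
      have h5 := (memY hD).1 e.2
      have h6 := (memY (cm_D _ _)).1 hs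
      rw [cm_dA s hD.1, hD.2] at h4
      refine ⟨hD.1, hD.2, ?_⟩
      have h7 : (cm s m).c * T.σ (e : Co T).c + T.σ (cm s m).c * (e : Co T).c = 0 := by
        rw [cm_c, map_sub, map_mul, map_mul, m.hb, s.hb]
        linear_combination m.b * h4 - s.b * h5
      have h8 : 2 * T.σ m.a * (cm s m).c * (e : Co T).c = 0 := by
        linear_combination (cm s m).c * h5 + (e : Co T).c * h6 - m.a * h7
      simpa [h2, sa, c0] using h8
  · have := eβ ⟨m, hm⟩
    rw [k] at this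
    have h1 := (cm_one_iff.1 (left_eq_mul.1 this)).2
    rw [cm_dA' rfl] at h1
    simp only [xc] at h1
    exact one_ne_zero (by linear_combination -h1 - ht : (1 : K) = 0)
  · exact Subtype.ext (by rw [eβ, cm_eq_one.2 (comm_A (s := xc T t) (m := (y : Co T)) rfl (D_le_A hy)), mul_one])
  · show (e : Co T)⁻¹ * (β e : Co T) ∈ sZ T
    rw [eβ, inv_mul_cancel_left]; exact cm_Z' ⟨rfl, rfl⟩ _
  · show (e : Co T)⁻¹ * (γ e : Co T) ∈ sD T
    rw [eγ, inv_mul_cancel_left]; exact cm_D _ _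
  · have : (e : Co T)⁻¹ * (γ e : Co T) ∈ sZ T := he
    rw [eγ, inv_mul_cancel_left] at this
    exact dY e e.2 _ (by rw [cγ]; exact mul_ne_zero (mul_ne_zero T.ε_ne ha) hb) this.2.2
  · obtain ⟨l, sl, k1, k2, -⟩ := par hb v.2
    have l0 : l ≠ 0 := fun k => hv ⟨k1.trans (by rw [k, zero_mul]), k2.trans (by rw [k, zero_mul])⟩
    have h5 := (memY (m := m) (e := (w : Co T)) hw).1 w.2
    obtain ⟨r, hr⟩ : ∃ r, (w : Co T).c = l * (r * m.b) :=
      ⟨(w : Co T).c / (l * m.b), by field_simp⟩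
    have wd : T.σ (w : Co T).d = (w : Co T).d := A_d hw.1
    obtain ⟨g, hg⟩ := tr_sur (T := T) (mul_ne_zero l0 ha)
      (ρ := r * T.σ (v : Co T).c + T.σ r * (v : Co T).c + r * T.σ r * (l * m.b) -
        (r * T.σ (l * m.a) + T.σ r * (l * m.a)) * (l * m.b) - (w : Co T).d)
      (by simp only [map_add, map_mul, map_sub, T.sq, sl, m.hb, wd]; ring)
    have cs : (cm (w1 T (r, g)) m).c = r * m.b := by simp [cm_c, w1]
    obtain ⟨u, hu, eu⟩ := exA (s := w1 T (r, g)) hb ((memY (cm_D _ _)).2 (by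
      rw [cs]
      rw [hr, map_mul, sl] at h5
      exact mul_left_cancel₀ l0 (by linear_combination h5)))
    refine ⟨u, hu, Subtype.ext ?_⟩
    rw [eu]
    show (v : Co T) * cm _ (v : Co T) = (v : Co T) * (w : Co T)
    congr 1
    refine Co.ext ((cm_a _ _).trans hw.1.symm) ((cm_b _ _).trans hw.2.symm)
      (by rw [cm_c' k1 k2, cs, hr]) ?_
    simp only [cm_d, bf, Co.π, w1, k1, k2]
    linear_combination -hg

theorem jobPE : JobPE.{v} := by
  intro p _ K _ _ _ T h2 F hF m ha hb hE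
  have hP : IsPGroup p (⊤ : Subgroup (Co T)) := (pgroup_Co p).to_subgroup _
  obtain ⟨-, hn, h3⟩ := (isEssential_iff hP hF).1 hE
  obtain ⟨β, γ, D⟩ := dt p h2 ha hb (sylIn_of_fn hP hF hn)
  refine h3 fun α hα => mem_extSub_of_conj hP hF hn hα D.βU (fun k => D.β1 ?_) (D.main hα)
  obtain ⟨g, hg, e⟩ := mem_Inn.1 k
  refine MulEquiv.ext fun x => Subtype.ext ?_
  have := e x x.2
  rw [af_of_mem _ x.2, commE hb hg x.2, mul_inv_cancel_right] at this
  exact this

end H8.U4PE
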