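import Cfsg.Agent.H48.DP3Kit

/-! Slot DP3-SM2 of the tower for S3275. -/

set_option autoImplicit false

namespace H8.DPS

open Subgroup Cfsg H98 H97 H48.DP
open scoped commutatorElement

universe u

variable {G : Type u} [Group G]

theorem comm_of_sq {W : Subgroup G} (h : ∀ a ∈ W, a * a = 1) {a b : G} (ha : a ∈ W) (hb : b ∈ W) :
    a * b = b * a := by
  have h1 := h a ha
  have h2 := h b hb
  have h3 := h _ (W.mul_mem ha hb)
  calc a * b = a * (a * b * (a * b)) * b := by rw [h3, mul_one]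
    _ = (a * a) * (b * a) * (b * b) := by group
    _ = b * a := by rw [h1, h2, one_mul, mul_one]

theorem c1_iff {a w : G} : w ∈ C1 a ↔ ⁅w, a⁆ = 1 := by
  rw [mem_C1, commutatorElement_eq_one_iff_mul_comm, eq_comm]

theorem comm_mem {W : Subgroup G} {a w : G} (ha : a ∈ No W) (hw : w ∈ W) : ⁅w, a⁆ ∈ W := by
  have : ⁅w, a⁆ = w * (a * w⁻¹ * a⁻¹) := by simp [commutatorElement_def, mul_assoc]
  rw [this]
  exact W.mul_mem hw ((mem_normalizer_iff.1 ha _).1 (W.inv_mem hw))

theorem sq_cent [Finite G] {W : Subgroup G} (h : ∀ a ∈ W, a * a = 1) {a : G} (ha : a ∈ No W)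
    (h2 : (C1 a).relIndex W = 2) : a * a ∈ Ce W := by
  refine mem_Ce.2 fun w hw => ?_
  have hc : ⁅w, a⁆ ∈ C1 a := by
    by_cases k : w ∈ C1 a
    · rw [c1_iff.1 k]; exact one_mem _
    · have e : ⁅w, a⁆ = w * (a * w⁻¹ * a⁻¹) := by simp [commutatorElement_def, mul_assoc]
      rw [e]
      refine mul_mem_of_idx h2.le hw ((mem_normalizer_iff.1 ha _).1 (W.inv_mem hw)) k fun k' => k ?_
      have a1 : a ∈ C1 a := mem_C1.2 rfl
      have := (C1 a).mul_mem ((C1 a).mul_mem ((C1 a).inv_mem a1) k') a1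
      simpa [mul_assoc] using this
  have hs := h _ (comm_mem ha hw)
  rw [← commutatorElement_eq_one_iff_mul_comm]
  calc ⁅w, a * a⁆ = ⁅w, a⁆ * (a * ⁅w, a⁆) * a⁻¹ := by simp [commutatorElement_def, mul_assoc]
    _ = 1 := by rw [mem_C1.1 hc, ← mul_assoc, hs]; simp

theorem two_eq {X : Type*} [Group X] {F : Subgroup X} (h : Nat.card F = 2) {x y : X} (hx : x ∈ F)
    (hy : y ∈ F) (x1 : x ≠ 1) (y1 : y ≠ 1) : x = y := by
  obtain ⟨z, -, hz⟩ := (Nat.card_eq_two_iff' (1 : F)).1 h
  have e1 := hz ⟨x, hx⟩ fun e => x1 (congrArg Subtype.val e)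
  have e2 := hz ⟨y, hy⟩ fun e => y1 (congrArg Subtype.val e)
  exact congrArg Subtype.val (e1.trans e2.symm)

theorem card_mul_rel {X : Type*} [Group X] {A B : Subgroup X} (h : A ≤ B) :
    Nat.card A * A.relIndex B = Nat.card B := by
  rw [← relIndex_bot_left, ← relIndex_bot_left, relIndex_mul_relIndex _ _ _ bot_le h]

theorem core [Finite G] {T P R L : Subgroup G} (h : LT T P R L) (hc : CharP 2 L)
    (he : ∀ a ∈ O2 L, a * a = 1) (h16 : Nat.card (O2 L) = 16) {X E : Type*} [Group X] [Finite X]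
    [Group E] (ι : X →* G) (hι : Function.Injective ι) (hT : ι.range ≤ T) (φ : X →* E)
    (hφ : Function.Surjective φ) (ec : ∀ a b : E, a * b = b * a) (e2 : ∀ a : E, a * a = 1)
    (hE : 16 < Nat.card E) :
    ∃ a ∈ T, (C1 a).relIndex (O2 L) = 2 ∧ ∃ w ∈ O2 L, a * a = ⁅w, a⁆ := by
  set W := O2 L with hW
  set X0 := W.comap ι with hX0
  set F := φ.ker ⊓ X0 with hF
  have sqk : ∀ a : X, a * a ∈ φ.ker := fun a => by rw [MonoidHom.mem_ker, map_mul, e2]
  have i0 : X0.index = W.relIndex ι.range := index_comap _ _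
  have j4 : (X0 ⊔ φ.ker).index ≤ 4 := by
    have m := relIndex_mul_index (le_sup_left : X0 ≤ X0 ⊔ φ.ker)
    have n0 := relIndex_ne_zero' X0 (X0 ⊔ φ.ker)
    by_cases k : φ.ker ≤ X0
    · rw [sup_eq_left.2 k, i0]
      have := h.idx_le_four hT (by
        rintro _ ⟨a, rfl⟩
        rw [← map_mul]; exact k (sqk a))
      rw [hW]
      omega
    · have n1 : X0.relIndex (X0 ⊔ φ.ker) ≠ 1 := fun e =>
        k (le_sup_right.trans (relIndex_eq_one.1 e))
      have l8 : X0.index ≤ 8 := by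
        rw [i0, ← h.idx8]
        exact relIndex_le_of_le_right hT (relIndex_ne_zero' _ _)
      have : 2 * (X0 ⊔ φ.ker).index ≤ X0.index :=
        m ▸ Nat.mul_le_mul_right _ (by omega)
      omega
  have cE : Nat.card (X0.map φ) * (X0 ⊔ φ.ker).index = Nat.card E := by
    have := index_map X0 φ
    rw [φ.range_eq_top_of_surjective hφ, index_top, mul_one] at this
    rw [← this, card_mul_index]
  have r5 : 5 ≤ Nat.card (X0.map φ) := by
    by_contra k
    have : Nat.card (X0.map φ) * (X0 ⊔ φ.ker).index ≤ 4 * 4 := Nat.mul_le_mul (by omega) j4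
    omega
  have cX : Nat.card F * Nat.card (X0.map φ) = Nat.card X0 := by
    rw [← relIndex_ker, ← inf_relIndex_right]
    exact card_mul_rel inf_le_right
  have cA : Nat.card (X0.map ι) = Nat.card X0 := card_map_of_injective hι
  have lA : X0.map ι ≤ W := map_comap_le _ _
  have dA : Nat.card X0 ∣ 16 := by rw [← cA, ← h16]; exact card_dvd_of_le lA
  have fpos : 0 < Nat.card F := Nat.card_pos
  have l16 := Nat.le_of_dvd (by norm_num) dA
  obtain ⟨a, ha⟩ : ∃ a : X, ι a ∉ W := by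
    by_contra k
    push Not at k
    have : X0 = ⊤ := eq_top_iff.2 fun a _ => k a
    rw [show X0 ⊔ φ.ker = ⊤ by rw [this, top_sup_eq], index_top, mul_one] at cE
    have : 1 * Nat.card (X0.map φ) ≤ Nat.card X0 := cX ▸ Nat.mul_le_mul_right _ fpos
    omega
  have aT : ι a ∈ T := hT ⟨a, rfl⟩
  have aL : ι a ∈ L := h.le aT
  have aN : ι a ∈ No W := self_le_normalizer_pCoreOf L aL
  have nc : ¬ W ≤ C1 (ι a) := fun k =>
    ha (hc ⟨aL, mem_Ce.2 fun w hw => (mem_C1.1 (k hw)).symm⟩)
  have key : ∀ x ∈ X0, ⁅x, a⁆ ∈ F := fun x hx => by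
    refine ⟨?_, ?_⟩
    · show φ ⁅x, a⁆ = 1
      rw [map_commutatorElement, commutatorElement_eq_one_iff_mul_comm, ec]
    · show ι ⁅x, a⁆ ∈ W
      rw [map_commutatorElement]; exact comm_mem aN hx
  have sqF : (C1 (ι a)).relIndex W = 2 → a * a ∈ F := fun k =>
    ⟨sqk a, by
      show ι (a * a) ∈ W
      rw [map_mul]; exact hc ⟨L.mul_mem aL aL, sq_cent he aN k⟩⟩
  refine ⟨ι a, aT, ?_⟩
  by_cases f1 : F = ⊥
  · have l : X0.map ι ≤ C1 (ι a) ⊓ W := by
      rintro _ ⟨x, hx, rfl⟩
      refine ⟨c1_iff.2 ?_, hx⟩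
      have := key x hx
      rw [f1, mem_bot] at this
      rw [← map_commutatorElement, this, map_one]
    have c1 := card_le_of_le l
    have c2 := card_mul_rel (inf_le_right : C1 (ι a) ⊓ W ≤ W)
    rw [inf_relIndex_right, h16] at c2
    have c3 : 1 * Nat.card (X0.map φ) ≤ Nat.card X0 := cX ▸ Nat.mul_le_mul_right _ fpos
    have n1 : (C1 (ι a)).relIndex W ≠ 1 := fun e => nc (relIndex_eq_one.1 e)
    have k2 : (C1 (ι a)).relIndex W = 2 := by
      generalize (C1 (ι a)).relIndex W = k at *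
      generalize Nat.card ↥(C1 (ι a) ⊓ W) = c at *
      have : 5 * k ≤ 16 := c2 ▸ Nat.mul_le_mul_right _ (by omega)
      have : k ≤ 3 := by omega
      interval_cases k <;> omega
    refine ⟨k2, 1, one_mem _, ?_⟩
    have := sqF k2
    rw [f1, mem_bot] at this
    rw [← map_mul, this, map_one, commutatorElement_one_left]
  · have f2 : 2 ≤ Nat.card F := by
      have : Nat.card F ≠ 1 := fun e => f1 (card_eq_one.1 e)
      omega
    have x10 : 2 * 5 ≤ Nat.card X0 := cX ▸ Nat.mul_le_mul f2 r5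
    have x16 : Nat.card X0 = 16 := by
      generalize Nat.card X0 = n at *
      interval_cases n <;> simp_all
    have cF : Nat.card F = 2 := by
      rw [x16] at cX
      generalize Nat.card F = f at *
      have : f * 5 ≤ 16 := cX ▸ Nat.mul_le_mul_left _ r5
      have : f ≤ 3 := by omega
      interval_cases f <;> omega
    have eA : X0.map ι = W := eq_of_le_of_card_ge lA (by omega)
    obtain ⟨w0, hw0, n0⟩ := SetLike.not_le_iff_exists.1 nc
    obtain ⟨x0, hx0, rfl⟩ : w0 ∈ X0.map ι := eA ▸ hw0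
    rw [c1_iff] at n0
    have val : ∀ y ∈ F, ι y = 1 ∨ ι y = ⁅ι x0, ι a⁆ := fun y hy => by
      by_cases y1 : y = 1
      · left; rw [y1, map_one]
      · right
        rw [← map_commutatorElement]
        exact congrArg ι (two_eq cF hy (key x0 hx0) y1 fun e => n0 (by
          rw [← map_commutatorElement, e, map_one]))
    have k2 : (C1 (ι a)).relIndex W = 2 := by
      refine relIndex_eq_two_iff.2 ⟨ι x0, hw0, fun b hb => ?_⟩
      have e : ⁅b * ι x0, ι a⁆ = ⁅ι x0, ι a⁆ * ⁅b, ι a⁆ := by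
        calc ⁅b * ι x0, ι a⁆ = b * ⁅ι x0, ι a⁆ * b⁻¹ * ⁅b, ι a⁆ := by
              simp [commutatorElement_def, mul_assoc]
          _ = _ := by rw [comm_of_sq he hb (comm_mem aN hw0), mul_inv_cancel_right]
      obtain ⟨x, hx, rfl⟩ : b ∈ X0.map ι := eA ▸ hb
      have := val _ (key x hx)
      rw [map_commutatorElement] at this
      rw [c1_iff, c1_iff, e]
      rcases this with k | k
      · right; rw [k, mul_one]; exact ⟨rfl, n0⟩
      · left; rw [k]; exact ⟨he _ (comm_mem aN hw0), n0⟩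
    refine ⟨k2, ?_⟩
    rcases val _ (sqF k2) with k | k
    · exact ⟨1, one_mem _, by rw [← map_mul, k, commutatorElement_one_left]⟩
    · exact ⟨ι x0, hw0, by rw [← map_mul, k]⟩

theorem jobSM2 : JobSM2.{u} := by
  intro G _ _ T P R L h hc he h16 hn
  simp only [SectionalPRankLE, PRankLE, not_forall] at hn
  obtain ⟨H, N, hN, A, hA, h2, hlt⟩ := hn
  refine core h hc he h16 (X := A.comap (QuotientGroup.mk' N)) (E := A)
    (T.subtype.comp (H.subtype.comp (Subgroup.subtype _))) ?_ ?_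
    ((QuotientGroup.mk' N).subgroupComap A) ?_ ?_ ?_ (by omega)
  · exact T.subtype_injective.comp (H.subtype_injective.comp (subtype_injective _))
  · rintro _ ⟨x, rfl⟩
    exact x.1.1.2
  · exact MonoidHom.subgroupComap_surjective_of_surjective _ _ (QuotientGroup.mk'_surjective N)
  · exact fun a b => hA.is_comm.comm a b
  · exact fun a => Subtype.ext (by simpa [sq] using h2 a a.2)

end H8.DPS
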