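import Cfsg.Agent.H11.FBSpec

/-!
# Slot FB-FA: a Frobenius group whose complement has even order
-/

set_option autoImplicit false

namespace H8.FBFA

open H11.FB

universe u

variable {G : Type u} [Group G] [Finite G] {L K H : Subgroup G}

/-- every involution of the complement inverts the kernel -/
theorem inverts (f : Fr L K H) {s : G} (hs : s ∈ H) (s1 : s ≠ 1) (s2 : s * s = 1) {k : G}
    (hk : k ∈ K) : s * k * s⁻¹ = k⁻¹ := by
  obtain ⟨x, -, rfl⟩ := exists_comm (U := K) (h := s) (fun x hx => f.Kn s (f.Hle hs) x hx)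
    (fun x hx e => f.fpf hs s1 hx e) hk
  have hi : s⁻¹ = s := inv_eq_of_mul_eq_one_right s2
  rw [hi]
  calc s * (x * (s * x⁻¹ * s)) * s = s * x * s * x⁻¹ * (s * s) := by group
    _ = s * x * s * x⁻¹ := by rw [s2, mul_one]
    _ = s⁻¹ * x * s⁻¹ * x⁻¹ := by rw [hi]
    _ = (x * (s * x⁻¹ * s))⁻¹ := by group

/-- the complement has at most one involution -/
theorem uniq (f : Fr L K H) {s t : G} (hs : s ∈ H) (s1 : s ≠ 1) (s2 : s * s = 1)
    (ht : t ∈ H) (t1 : t ≠ 1) (t2 : t * t = 1) : s = t := by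
  obtain ⟨⟨k, hk⟩, k1⟩ := (Subgroup.ne_bot_iff_exists_ne_one).1 f.Kne
  have k1' : k ≠ 1 := fun e => k1 (Subtype.ext e)
  have a := inverts f hs s1 s2 hk
  have b := inverts f ht t1 t2 hk
  by_contra ne
  have h1 : s⁻¹ * t ≠ 1 := fun e => ne (inv_mul_eq_one.1 e)
  refine k1' (f.fpf (H.mul_mem (H.inv_mem hs) ht) h1 hk ?_)
  calc s⁻¹ * t * k = s⁻¹ * (t * k * t⁻¹) * t := by group
    _ = s⁻¹ * (s * k * s⁻¹) * t := by rw [a, b]
    _ = k * (s⁻¹ * t) := by group

theorem jobFA : JobFA.{u} := by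
  intro G _ _ L K H f he
  have hodd : Odd (Nat.card K) := by
    rw [← Nat.not_even_iff_odd]
    intro hk
    have := Nat.dvd_gcd (even_iff_two_dvd.1 hk) (even_iff_two_dvd.1 he)
    rw [f.cop] at this
    exact absurd this (by norm_num)
  obtain ⟨⟨t, ht⟩, ho⟩ := exists_prime_orderOf_dvd_card' (G := H) 2 (even_iff_two_dvd.1 he)
  have ho' : orderOf t = 2 := (Subgroup.orderOf_mk t ht).symm.trans ho
  have t1 : t ≠ 1 := fun e => by rw [e, orderOf_one] at ho'; exact absurd ho' (by norm_num)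
  have t2 : t * t = 1 := by rw [← pow_two, ← ho', pow_orderOf_eq_one]
  have cjt : ∀ x ∈ L, x ≠ 1 → x * x = 1 → ∃ k ∈ K, k * x * k⁻¹ = t := by
    intro x hx x1 x2
    have ox : orderOf x = 2 := orderOf_eq_prime (by rw [pow_two, x2]) x1
    have nk : x ∉ K := f.not_mem_K x1 (by rw [ox]; exact (Nat.coprime_two_left.2 hodd))
    obtain ⟨k, hk, h⟩ := f.cjH x hx nk
    refine ⟨k, hk, uniq f h (fun e => x1 ?_) ?_ ht t1 t2⟩
    · calc x = k⁻¹ * (k * x * k⁻¹) * k := by group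
        _ = 1 := by rw [e]; group
    · calc k * x * k⁻¹ * (k * x * k⁻¹) = k * (x * x) * k⁻¹ := by group
        _ = 1 := by rw [x2]; group
  refine ⟨t, ht, t1, t2, fun k hk => inverts f ht t1 t2 hk, hodd, cjt, ?_⟩
  intro x hx y hy x1 x2 y1 y2 c
  obtain ⟨k, hk, e⟩ := cjt x hx x1 x2
  have hL : k * y * k⁻¹ ∈ L := L.mul_mem (L.mul_mem (f.Kle hk) hy) (L.inv_mem (f.Kle hk))
  have hH : k * y * k⁻¹ ∈ H := by
    refine f.cenH t ht t1 _ hL ?_
    have : k * y * k⁻¹ * t * (k * y * k⁻¹)⁻¹ = t := by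
      rw [← e]
      calc k * y * k⁻¹ * (k * x * k⁻¹) * (k * y * k⁻¹)⁻¹ = k * (y * x) * y⁻¹ * k⁻¹ := by group
        _ = k * (x * y) * y⁻¹ * k⁻¹ := by rw [c]
        _ = k * x * k⁻¹ := by group
    rw [this]
    exact ht
  have e2 : k * y * k⁻¹ = t := by
    refine uniq f hH (fun e => y1 ?_) ?_ ht t1 t2
    · calc y = k⁻¹ * (k * y * k⁻¹) * k := by group
        _ = 1 := by rw [e]; group
    · calc k * y * k⁻¹ * (k * y * k⁻¹) = k * (y * y) * k⁻¹ := by group
        _ = 1 := by rw [y2]; group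
  calc x = k⁻¹ * (k * x * k⁻¹) * k := by group
    _ = k⁻¹ * (k * y * k⁻¹) * k := by rw [e, e2]
    _ = y := by group

end H8.FBFA
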