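import Cfsg.Agent.H42.PnSpec

/-! PN tower (S3399), slot HALF: half of the blocks pass through a point; a `p`-subgroup of `K`
stabilises a second block. -/

set_option autoImplicit false
set_option linter.unusedSectionVars false

namespace H8.PnHalf
open Equiv MulAction Pointwise H2.Ln H42.PN

variable {α : Type} [Fintype α] [DecidableEq α]

theorem sm_mem_bl {G K : Subgroup (Perm α)} {g : Perm α} (hg : g ∈ G) {B : Finset α}
    (hB : B ∈ bl G K) : g • B ∈ bl G K := by
  obtain ⟨h, hh, rfl⟩ := mem_bl.1 hB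
  exact mem_bl.2 ⟨g * h, G.mul_mem hg hh, mul_smul _ _ _⟩

theorem lam_le {G K : Subgroup (Perm α)} {g : Perm α} (hg : g ∈ G) (a : α) :
    ((bl G K).filter (a ∈ ·)).card ≤ ((bl G K).filter (g a ∈ ·)).card :=
  Finset.card_le_card_of_injOn (g • ·) (fun B hB => by
    rw [Finset.mem_coe, Finset.mem_filter] at hB ⊢
    exact ⟨sm_mem_bl hg hB.1, app_mem_sm.2 hB.2⟩) fun _ _ _ _ h => smul_left_cancel g h

theorem jobHalf : Half := by
  intro α _ _ G K tr hn a
  have c : ∀ b, ((bl G K).filter (b ∈ ·)).card = ((bl G K).filter (a ∈ ·)).card := fun b => by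
    obtain ⟨g, hg, e⟩ := tr a b
    obtain ⟨h, hh, e'⟩ := tr b a
    exact le_antisymm (e' ▸ lam_le hh b) (e ▸ lam_le hg a)
  have s : ∑ b : α, ((bl G K).filter (b ∈ ·)).card = ∑ B ∈ bl G K, B.card := by
    simp only [Finset.card_filter]
    rw [Finset.sum_comm]
    refine Finset.sum_congr rfl fun B _ => ?_
    simp
  have s2 : ∑ B ∈ bl G K, B.card = (bl G K).card * (fp K).card := by
    rw [← smul_eq_mul, ← Finset.sum_const]
    refine Finset.sum_congr rfl fun B hB => ?_
    obtain ⟨h, -, rfl⟩ := mem_bl.1 hB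
    exact Finset.card_smul_finset _ _
  simp only [c, Finset.sum_const, Finset.card_univ, smul_eq_mul] at s
  have pos : 0 < Fintype.card α := Fintype.card_pos_iff.2 ⟨a⟩
  rw [s2, hn] at s
  refine Nat.eq_of_mul_eq_mul_left (show 0 < (fp K).card by omega) ?_
  linear_combination s

/-- A `p`-group without fixed point on an invariant family. -/
theorem dvd_card {p : ℕ} (hp : p.Prime) {P : Subgroup (Perm α)} (hP : IsPGroup p P)
    (S : Finset (Finset α)) (hS : ∀ x ∈ P, ∀ B ∈ S, x • B ∈ S)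
    (hn : ∀ B ∈ S, ¬ ∀ x ∈ P, x • B = B) : p ∣ S.card := by
  have := Fact.mk hp
  let T : SubMulAction P (Finset α) := ⟨S, fun x B hB => hS x.1 x.2 B hB⟩
  by_contra h
  obtain ⟨B, hB⟩ := hP.nonempty_fixed_point_of_prime_not_dvd_card T (by
    rwa [show Nat.card T = S.card from Nat.card_eq_finsetCard S])
  exact hn B.1 B.2 fun x hx => congrArg Subtype.val (hB ⟨x, hx⟩)

theorem jobCon : Half → Con := by
  intro half α _ _ G K cx p P hp hP hK
  by_contra h
  push Not at h
  obtain ⟨a, ha⟩ : (fp K).Nonempty := Finset.card_pos.1 (by have := cx.four; omega)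
  have t2 := cx.t3.t2 (by rw [Finset.card_univ, cx.half]; have := cx.four; omega)
  have e := half α G K (fun a b => t2.tr a (Finset.mem_univ _) b (Finset.mem_univ _)) cx.half a
  have hF : fp K ∈ bl G K := mem_bl.2 ⟨1, G.one_mem, one_smul _ _⟩
  have ne : ∀ x ∈ P, ∀ B, B ≠ fp K → x • B ≠ fp K := fun x hx B hB h =>
    hB (smul_left_cancel x (h.trans (sm_fp (hK hx)).symm))
  have no : ∀ B ∈ bl G K, B ≠ fp K → ¬ ∀ x ∈ P, x • B = B := fun B h1 h2 h3 => by
    obtain ⟨x, hx, h4⟩ := h B h1 h2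
    exact h4 (h3 x hx)
  have d1 := dvd_card hp hP ((bl G K).erase (fp K)) (fun x hx B hB => by
    rw [Finset.mem_erase] at hB ⊢
    exact ⟨ne x hx B hB.1, sm_mem_bl (cx.le (hK hx)) hB.2⟩) fun B hB => by
    rw [Finset.mem_erase] at hB
    exact no B hB.2 hB.1
  have d2 := dvd_card hp hP (((bl G K).filter (a ∈ ·)).erase (fp K)) (fun x hx B hB => by
    rw [Finset.mem_erase, Finset.mem_filter] at hB ⊢
    refine ⟨ne x hx B hB.1, sm_mem_bl (cx.le (hK hx)) hB.2.1, ?_⟩
    have := (app_mem_sm (g := x)).2 hB.2.2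
    rwa [mem_fp.1 ha x (hK hx)] at this) fun B hB => by
    rw [Finset.mem_erase, Finset.mem_filter] at hB
    exact no B hB.2.1 hB.1
  have hF' : fp K ∈ (bl G K).filter (a ∈ ·) := Finset.mem_filter.2 ⟨hF, ha⟩
  have c1 := Finset.card_erase_add_one hF
  have c2 := Finset.card_erase_add_one hF'
  have : ((bl G K).erase (fp K)).card =
      2 * (((bl G K).filter (a ∈ ·)).erase (fp K)).card + 1 := by omega
  rw [this] at d1
  exact hp.one_lt.ne' (Nat.dvd_one.1 ((Nat.dvd_add_right (d2.mul_left 2)).1 d1))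

end H8.PnHalf
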