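/- Thompson's transfer lemma for a homomorphism into a commutative group (after H95.Transfer2). -/
import Cfsg.Agent.H95.Transfer2

namespace H8.WZ

open MulAction Cfsg Cfsg.FusionSystem H92 H95

universe u

variable {Ω : Type u} [Group Ω] {S : Subgroup Ω} {F : FusionSystem S}

/-- Thompson's transfer lemma for fusion systems (focal form). -/
theorem thompson2 [Finite S] (hS : IsPGroup 2 S) (hF : F.IsSaturated 2) {A : Type*} [CommGroup A]
    (θ : S →* A) {ε : A} (hε : orderOf ε = 2) {x : Ω} (hx : x ∈ S) (hx2 : orderOf x = 2)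
    (hθ : ∀ j : S, F.IsConjElt x j → θ j = 1 ∨ θ j = ε)
    (hc : ∀ j : S, F.IsConjElt x j → F.IsFullyNormalized (Subgroup.zpowers (j : Ω)) → θ j ≠ 1) :
    x ∉ F.focalSubgroup := by
  classical
  obtain ⟨W, I, _, _, _, _, ι, c, h, hn⟩ := exists_wdata hS hF
  intro hfoc
  set u : S := ⟨x, hx⟩
  have hu2 : ι u * ι u = 1 := by
    rw [← map_mul, ← map_one ι]
    congr 1
    refine Subtype.ext ?_
    show x * x = 1
    rw [← pow_two, ← hx2, pow_orderOf_eq_one]
  have h1 := h.V_focal θ (s := u) hfoc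
  rw [h.V_apply, ← Finset.prod_filter_mul_prod_filter_not Finset.univ (fun j => ι u • j = j)] at h1
  have h2 : ∏ j ∈ Finset.univ.filter (fun j => ¬ ι u • j = j), θ (c (ι u) j) = 1 := by
    refine Finset.prod_involution (fun j _ => ι u • j) (fun j _ => ?_)
      (fun j hj _ => (Finset.mem_filter.1 hj).2) (fun j hj => ?_) (fun j _ => ?_)
    · rw [mul_comm, ← map_mul, ← h.cocycle, hu2, h.c_one, map_one]
    · refine Finset.mem_filter.2 ⟨Finset.mem_univ _, fun e => (Finset.mem_filter.1 hj).2 ?_⟩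
      rw [← mul_smul, hu2, one_smul] at e
      exact e.symm
    · rw [← mul_smul, hu2, one_smul]
  have h3 : 2 ∣ (Finset.univ.filter (fun j : I => ¬ ι u • j = j)).card := by
    have : ∑ j ∈ Finset.univ.filter (fun j : I => ¬ ι u • j = j), (1 : ZMod 2) = 0 := by
      refine Finset.sum_involution (fun j _ => ι u • j) (fun j _ => by decide)
        (fun j hj _ => (Finset.mem_filter.1 hj).2) (fun j hj => ?_) (fun j _ => ?_)
      · refine Finset.mem_filter.2 ⟨Finset.mem_univ _, fun e => (Finset.mem_filter.1 hj).2 ?_⟩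
        rw [← mul_smul, hu2, one_smul] at e
        exact e.symm
      · rw [← mul_smul, hu2, one_smul]
    rwa [Finset.sum_const, nsmul_one, ZMod.natCast_eq_zero_iff] at this
  set Fx := Finset.univ.filter (fun j : I => ι u • j = j) with hFx
  have h4 : 2 ∣ (Fx.filter fun j => θ (c (ι u) j) = 1).card := by
    rw [Finset.card_eq_sum_card_fiberwise (f := fun j => ConjClasses.mk (c (ι u) j))
      (t := (Fx.filter fun j => θ (c (ι u) j) = 1).image fun j => ConjClasses.mk (c (ι u) j))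
      (fun j hj => Finset.mem_coe.2 (Finset.mem_image_of_mem _ hj))]
    refine Finset.dvd_sum fun q hq => ?_
    obtain ⟨j₀, hj₀, rfl⟩ := Finset.mem_image.1 hq
    obtain ⟨hj1, hj2⟩ := Finset.mem_filter.1 hj₀
    have hj3 : ι u • j₀ = j₀ := (Finset.mem_filter.1 hj1).2
    set y := c (ι u) j₀
    have hy : F.IsConjElt u y := h.isConjElt_hol hj3
    obtain ⟨f, hf, e⟩ := H92.isConjElt_iff.1 hy
    have hy2 : orderOf (y : Ω) = 2 := by
      rw [← e, hf.orderOf_eq (Subgroup.mem_zpowers _), hx2]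
    have hnf : ¬ F.IsFullyNormalized (Subgroup.zpowers (y : Ω)) := fun hf => hc _ hy hf hj2
    simp only [IsFullyNormalized, not_and, not_forall, not_le] at hnf
    obtain ⟨Q, hQ, hlt⟩ := hnf (Subgroup.zpowers_le.2 y.2)
    obtain ⟨g, hg, rfl⟩ := H92.isConj_iff.1 hQ
    rw [hg.mulOn.img_zpowers (Subgroup.mem_zpowers _)] at hlt
    let y' : S := ⟨g y, hg.mem (Subgroup.mem_zpowers _)⟩
    have hy' : F.IsConjElt u y' := by
      refine H92.isConjElt_iff.2 ⟨_, hf.comp hg fun z hz => ?_, by rw [e]⟩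
      rw [← e, ← hf.mulOn.img_zpowers (Subgroup.mem_zpowers _)]
      exact mem_img_of_mem f hz
    have hy2' : orderOf (y' : Ω) = 2 := by
      rw [← hy2]; exact hg.orderOf_eq (Subgroup.mem_zpowers _)
    rw [card_normalizerIn_zpowers_of_two hy2,
      card_normalizerIn_zpowers_of_two (y := y') hy2'] at hlt
    have h5 := h.dvd_card_hol hS hy hy' hlt
    rw [Nat.card_eq_fintype_card, Fintype.card_subtype] at h5
    refine h5.trans (dvd_of_eq (congrArg Finset.card (Eq.symm ?_)))
    ext j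
    simp only [Finset.mem_filter, hFx, Finset.mem_univ, true_and, ConjClasses.mk_eq_mk_iff_isConj]
    refine ⟨fun hh => ⟨hh.1.1, hh.2⟩, fun hh => ⟨⟨hh.1, ?_⟩, hh.2⟩⟩
    obtain ⟨t, ht⟩ := isConj_iff.1 hh.2.symm
    rw [← ht, map_mul, map_mul, hj2, map_inv, mul_one, mul_inv_cancel]
  have h6 : ∏ j ∈ Fx.filter (fun j => θ (c (ι u) j) = 1), θ (c (ι u) j) = 1 :=
    Finset.prod_eq_one fun j hj => (Finset.mem_filter.1 hj).2
  have h7 : ∏ j ∈ Fx.filter (fun j => ¬ θ (c (ι u) j) = 1), θ (c (ι u) j)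
      = ∏ j ∈ Fx.filter (fun j => ¬ θ (c (ι u) j) = 1), ε :=
    Finset.prod_congr rfl fun j hj => (hθ _ (h.isConjElt_hol
      (Finset.mem_filter.1 (Finset.mem_filter.1 hj).1).2)).resolve_left (Finset.mem_filter.1 hj).2
  rw [h2, mul_one, ← Finset.prod_filter_mul_prod_filter_not Fx (fun j => θ (c (ι u) j) = 1),
    h6, h7, one_mul, Finset.prod_const, ← orderOf_dvd_iff_pow_eq_one, hε] at h1
  apply hn
  rw [← Finset.card_univ, ← Finset.card_filter_add_card_filter_not (fun j => ι u • j = j),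
    ← Finset.card_filter_add_card_filter_not (s := Fx) (fun j => θ (c (ι u) j) = 1)]
  exact dvd_add (dvd_add h4 h1) h3

end H8.WZ
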